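import Cfsg.Agent.H866.J4OddEnd
import Cfsg.Agent.OrdDiv.Table
import Cfsg.Agent.S5566
import Cfsg.Agent.S5577
import Cfsg.Agent.H859.Iso
import Cfsg.Agent.H858.FixJ4

/-!
# Overgroups of a Sylow `p`-subgroup of prime order in groups of Janko-four type (helper860)

The variant of `H866.J4Odd.Facts.over` for the primes `23` and `31`, where normal `2`-subgroups have to be allowed.
-/

set_option autoImplicit false

namespace Cfsg.Agent.H860.MaxBase

open Cfsg Subgroup
open Cfsg.Agent.OrdDiv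
open Cfsg.Agent.H866.J4Ord Cfsg.Agent.H866.J4Min Cfsg.Agent.H866.OddTools Cfsg.Agent.H866.J4Odd
open Cfsg.Agent.OddOrderLocal.SylIn

universe u

/-- the facts on `J4` used here -/
structure Base (G : Type u) [Group G] [Finite G] : Prop where
  tab : OrderTable.{u}
  known : Known.{u}
  card : Nat.card G = nJ
  ea : ∀ A : Subgroup G, IsElementaryAbelian 2 A → Nat.card A ≤ 2 ^ 11

variable {G : Type u} [Group G] [Finite G]

theorem Base.dvd (F : Base G) (A : Subgroup G) : Nat.card A ∣ nJ :=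
  F.card ▸ Subgroup.card_subgroup_dvd_card A

/-- the order of an elementary abelian subgroup -/
theorem Base.ea_card (F : Base G) {R : Subgroup G} (hR : R ≠ ⊥) {r : ℕ} (hr : r.Prime)
    (h : IsElementaryAbelian r R) : ∃ x ∈ lJ, ∃ j : ℕ, 1 ≤ j ∧ j ≤ x.2 ∧ (x.1 = 2 → j ≤ 11) ∧ x.1 = r ∧
      Nat.card R = x.1 ^ j := by
  have : Fact r.Prime := ⟨hr⟩
  have h1 : IsPGroup r R := fun x => ⟨1, by rw [pow_one]; exact Subtype.ext (h.2 x x.2)⟩
  obtain ⟨j, hj⟩ := IsPGroup.iff_card.1 h1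
  have hj1 : 1 ≤ j := by
    by_contra h0
    have : j = 0 := by omega
    rw [this, pow_zero] at hj
    exact hR (Subgroup.card_eq_one.1 hj)
  obtain ⟨k, hk, hjk⟩ := exists_pair valid_lJ hr hj1 (hj ▸ F.dvd R)
  refine ⟨(r, k), hk, j, hj1, hjk, ?_, rfl, hj⟩
  rintro (rfl : r = 2)
  have h2 := F.ea R h
  rw [hj] at h2
  exact (Nat.pow_le_pow_iff_right (by norm_num)).1 h2

/-- the powers of odd primes dividing the order of `J4` which are `1` modulo `p` -/
def okC (p : ℕ) : Bool :=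
  lJ.all fun x => (List.range (x.2 + 1)).all fun j => (j == 0) || (x.1 == 2) || (x.1 == p) ||
    (x.1 ^ j % p != 1)

theorem okC_spec {p : ℕ} (h : okC p = true) {x : ℕ × ℕ} (hx : x ∈ lJ) {j : ℕ} (hj : 1 ≤ j) (hj2 : j ≤ x.2)
    (h2 : x.1 ≠ 2) (hp : x.1 ≠ p) : x.1 ^ j % p ≠ 1 := by
  unfold okC at h
  rw [List.all_eq_true] at h
  have h3 := h x hx
  rw [List.all_eq_true] at h3
  have h4 := h3 j (List.mem_range.2 (by omega))
  simp only [Bool.or_eq_true, beq_iff_eq, bne_iff_ne] at h4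
  rcases h4 with ((h4 | h4) | h4) | h4
  · omega
  · exact absurd h4 h2
  · exact absurd h4 hp
  · exact h4

/-- the primes for which the order count works -/
def goodC (p : ℕ) : Bool :=
  okC p && ([5, 7, 23, 29, 31, 37, 43].all fun q => (q == p) || ((q - 1) % p != 0)) &&
    ([5, 7, 23, 29, 31, 37, 43].all fun q => nJ % q ^ 2 != 0) && (nJ % p ^ 2 != 0)

theorem goodC_23 : goodC 23 = true := by decide +kernel
theorem goodC_31 : goodC 31 = true := by decide +kernel

/-- **overgroups of a self-centralizing Sylow subgroup of prime order** -/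
theorem Base.over (F : Base G) {p : ℕ} (hp : p.Prime) (hg : goodC p = true) {P H : Subgroup G}
    (hP : Nat.card P = p) (hC : centralizer (P : Set G) ≤ P) (hPH : P ≤ H)
    (hH : ¬ H ≤ normalizer (P : Set G)) :
    (∃ R : Subgroup G, R ≤ H ∧ H ≤ normalizer (R : Set G) ∧ IsElementaryAbelian 2 R ∧
      R ⊓ centralizer (P : Set G) = ⊥ ∧
      ∃ j : ℕ, 1 ≤ j ∧ j ≤ 11 ∧ 2 ^ j % p = 1 ∧ Nat.card R = 2 ^ j) ∨
    ∃ K : Subgroup G, K ≤ H ∧ H ≤ normalizer (K : Set G) ∧
      IsSimpleGroup K ∧ (¬ ∀ a b : K, a * b = b * a) ∧ Nat.card K ∈ ords ∧ P ≤ K ∧ IsSyl p P K ∧ IsSyl p P H := by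
  have : Fact p.Prime := ⟨hp⟩
  unfold goodC at hg
  simp only [Bool.and_eq_true] at hg
  obtain ⟨⟨⟨hg1, hg2⟩, hg3⟩, hg4⟩ := hg
  have hPg : IsPGroup p P := IsPGroup.of_card (n := 1) (by rw [hP, pow_one])
  have hp2 : ¬ p ^ 2 ∣ nJ := by
    intro h
    rw [Nat.mod_eq_zero_of_dvd h] at hg4
    exact absurd hg4 (by decide)
  have hsyl : ∀ X : Subgroup G, P ≤ X → IsSyl p P X := fun X hX => by
    refine ⟨hX, hPg, fun h => hp2 ?_⟩
    have h1 := card_mul_relIndex hX
    obtain ⟨c, hc⟩ := h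
    have h2 : p ^ 2 ∣ Nat.card X := ⟨c, by rw [← h1, hP, hc]; ring⟩
    exact h2.trans (F.dvd X)
  have hH1 : H ≠ ⊥ := by
    rintro rfl
    exact hH bot_le
  obtain ⟨R, hRH, hR, hn, -, h⟩ := exists_min F.tab F.known (F.card ▸ dvd_rfl) H hH1
  have hPR : ¬ P ≤ R → P ⊓ R = ⊥ := by
    intro h0
    have h1 := Subgroup.card_dvd_of_le (inf_le_left : P ⊓ R ≤ P)
    rw [hP] at h1
    rcases (Nat.dvd_prime hp).1 h1 with h2 | h2
    · exact Subgroup.card_eq_one.1 h2
    · exact absurd (inf_eq_left.1 (Subgroup.eq_of_le_of_card_ge inf_le_left (by rw [hP, h2]))) h0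
  rcases h with ⟨r, hr, h⟩ | ⟨h1, h2, h3⟩
  · left
    obtain ⟨x, hx, j, hj1, hj2, hj3, rfl, hj⟩ := F.ea_card hR hr h
    have hr' : Fact (x.1).Prime := ⟨hr⟩
    by_cases hle : P ≤ R
    · -- then `R = P`
      exfalso
      have h4 : p ∣ x.1 ^ j := by
        rw [← hj, ← hP]
        exact Subgroup.card_dvd_of_le hle
      have h5 : p = x.1 := (Nat.prime_dvd_prime_iff_eq hp hr).1 (hp.dvd_of_dvd_pow h4)
      have h6 : j = 1 := by
        by_contra hne
        apply hp2
        rw [h5]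
        exact (pow_dvd_pow _ (by omega : 2 ≤ j)).trans (hj ▸ F.dvd R)
      have h7 : P = R := Subgroup.eq_of_le_of_card_ge hle (by rw [hj, hP, h6, pow_one, h5])
      rw [← h7] at hn
      exact hH hn
    · have h4 := hPR hle
      have h5 : R ⊓ centralizer (P : Set G) = ⊥ := by
        rw [eq_bot_iff, ← h4, inf_comm P R]
        exact inf_le_inf_left _ hC
      have h6 := card_mod_one hPg (hPH.trans hn) h5
      rw [hj] at h6
      by_cases h2 : x.1 = 2
      · rw [h2] at h h6 hj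
        exact ⟨R, hRH, hn, h, h5, j, hj1, hj3 h2, h6, hj⟩
      · exfalso
        refine okC_spec hg1 hx hj1 hj2 h2 ?_ h6
        rintro rfl
        rw [Nat.pow_mod, Nat.mod_self, Nat.zero_pow (by omega), Nat.zero_mod] at h6
        exact absurd h6 (by norm_num)
  · right
    refine ⟨R, hRH, hn, h1, h2, h3, ?_⟩
    by_cases hpK : p ∣ Nat.card R
    · -- then `P ≤ R`
      obtain ⟨Q, hQ⟩ := exists_isSyl p R
      have h4 : Nat.card Q = p := by
        obtain ⟨j, hj⟩ := IsPGroup.iff_card.1 hQ.isPGroup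
        have h5 : j ≠ 0 := by
          rintro rfl
          have h6 := card_mul_relIndex hQ.le
          rw [hj, pow_zero, one_mul] at h6
          exact hQ.not_dvd (h6 ▸ hpK)
        have h6 : ¬ 2 ≤ j := fun h7 => hp2 ((pow_dvd_pow _ h7).trans (hj ▸ F.dvd Q))
        have h7 : j = 1 := by omega
        rw [hj, h7, pow_one]
      have h5 : IsSyl p Q H := (hsyl H hPH).of_card_le (hQ.le.trans hRH) hQ.isPGroup (by rw [h4, hP])
      obtain ⟨x, hx, h6⟩ := h5.exists_conj (hsyl H hPH)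
      have h7 : P ≤ R := by
        rw [← h6]
        rintro _ ⟨y, hy, rfl⟩
        exact ((mem_normalizer_iff.1 (hn hx)) y).1 (hQ.le hy)
      exact ⟨h7, hsyl R h7, hsyl H hPH⟩
    · exfalso
      obtain ⟨q, hq, hqd⟩ := ords_fst _ h3
      have hqp : q.Prime := prime_of_mem hq
      have hne : q ≠ p := by
        rintro rfl
        exact hpK hqd
      rw [List.all_eq_true] at hg2 hg3
      have h4 := hg2 q hq
      simp only [Bool.or_eq_true, beq_iff_eq, bne_iff_ne] at h4
      have h5 : ¬ p ∣ q - 1 := fun h6 => by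
        rcases h4 with h4 | h4
        · exact hne h4
        · exact h4 (Nat.mod_eq_zero_of_dvd h6)
      have h6 : ¬ q ^ 2 ∣ Nat.card R := fun h7 => by
        have h8 := hg3 q hq
        rw [Nat.mod_eq_zero_of_dvd (h7.trans (F.dvd R))] at h8
        exact absurd h8 (by decide)
      obtain ⟨Y, hYR, hY, hYc⟩ := exists_cent hPg (hPH.trans hn) hpK hqp hqd h6 h5
      have h7 : q ∣ p := by
        rw [← hY, ← hP]
        exact Subgroup.card_dvd_of_le (hYc.trans hC)
      exact hne ((Nat.prime_dvd_prime_iff_eq hqp hp).1 h7)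

theorem Base.eq_top (F : Base G) {K : Subgroup G} (h : Nat.card K = nJ) : K = ⊤ :=
  Subgroup.eq_top_of_card_eq K (by rw [h, F.card])

/-- the facts on the order and the elementary abelian 2-subgroups -/
theorem base (hS : Known.{u}) [IsSimpleGroup G] (hG : ¬ IsMulCommutative G) (hJ : Cfsg.IsOfJankoFourType G) : Base G where
  tab := Cfsg.Agent.OrdDiv.table
  known := hS
  card := by
    obtain ⟨e⟩ := Cfsg.Agent.H859.Iso.exists_iso hJ
    rw [← Nat.card_congr e.toEquiv, Cfsg.Agent.H858.FixJ4.card_J4]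
    rfl
  ea := Cfsg.Agent.H866.J4OddEnd.ea_le (fun T => Cfsg.Agent.S5566.result hG hJ T)

/-- the subgroups of order `p` are Sylow subgroups -/
theorem Base.key (F : Base G) {p : ℕ} [Fact p.Prime] (h1 : ¬ p ^ 2 ∣ nJ) (Q : Subgroup G → Prop)
    (hQ : ∀ U : Sylow p G, Q U) {P : Subgroup G} (hP : Nat.card P = p) : Q P := by
  obtain ⟨U, hU⟩ := Cfsg.Agent.H866.J4OddEnd.exists_sylow_eq F.card (p := p) (n := 1) h1 (P := P) (by rw [hP, pow_one])
  rw [← hU]
  exact hQ U

end Cfsg.Agent.H860.MaxBase
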