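import Cfsg.Agent.H860.MaxPGL
import Cfsg.Agent.H860.L32Data
import Cfsg.Agent.H859.CentC
import Cfsg.Agent.S5570

/-!
# The maximal subgroup `L₂(32) : 5` of `J4` (helper860)
-/

set_option autoImplicit false

namespace Cfsg.Agent.H860.MaxL32

open Cfsg Subgroup Pointwise
open Cfsg.Agent.OrdDiv
open Cfsg.Agent.H866.J4Ord Cfsg.Agent.H866.J4Min Cfsg.Agent.H866.OddTools Cfsg.Agent.H866.J4Odd
open Cfsg.Agent.OddOrderLocal.SylIn Cfsg.Agent.OddOrderLocal
open Cfsg.Agent.H860.MaxBase Cfsg.Agent.H860.MaxPGL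
open Cfsg.Agent.H858.NormC (centralizer_zpowers)

universe u

/-! ### 2-groups centralizing an element of order 11 -/

theorem two_le_J {w : Cfsg.Spor.J4} (hw : orderOf w = 11) {D : Subgroup Cfsg.Spor.J4} (hD : IsPGroup 2 D)
    (hc : D ≤ centralizer ({w} : Set Cfsg.Spor.J4)) : Nat.card D ≤ 16 := by
  have : Fact (Nat.Prime 2) := ⟨Nat.prime_two⟩
  obtain ⟨i, hi⟩ := IsPGroup.iff_card.1 hD
  have h1 : Nat.card D ∣ Nat.card (centralizer ({w} : Set Cfsg.Spor.J4)) := Subgroup.card_dvd_of_le hc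
  have h2 : i ≤ 4 := by
    rcases Cfsg.Agent.H859.ClassEleven.isConj_or hw with h | h
    · rw [Cfsg.Agent.H859.ClassEleven.card_centralizer_conj h] at h1
      have h3 := Cfsg.Agent.H859.SylEleven.card_centralizer_x
      have h4 : 11 ∣ Nat.card (centralizer ({Cfsg.Agent.H859.SylEleven.x} : Set Cfsg.Spor.J4)) := by
        rw [← Cfsg.Agent.H859.ClassEleven.orderOf_x, ← Nat.card_zpowers]
        refine Subgroup.card_dvd_of_le ?_
        rw [zpowers_le, mem_centralizer_singleton_iff]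
      have h5 : 11 * 2 ^ i ∣ Nat.card (centralizer ({Cfsg.Agent.H859.SylEleven.x} : Set Cfsg.Spor.J4)) := by
        refine Nat.Coprime.mul_dvd_of_dvd_of_dvd ?_ h4 (hi ▸ h1)
        exact Nat.Coprime.pow_right i (by norm_num)
      have h6 := (Nat.le_of_dvd Nat.card_pos h5).trans h3
      by_contra h7
      have h8 : 2 ^ 5 ≤ 2 ^ i := Nat.pow_le_pow_right (by norm_num) (by omega)
      omega
    · rw [Cfsg.Agent.H859.ClassEleven.card_centralizer_conj h] at h1
      have h3 : Nat.card (centralizer ({Cfsg.Agent.H859.NU.c} : Set Cfsg.Spor.J4)) ∣ 2 ^ 4 * 3 * 5 * 11 ^ 3 := by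
        rw [← Cfsg.Agent.H859.SylEleven.card_N]
        refine Subgroup.card_dvd_of_le (le_trans ?_ Cfsg.Agent.H859.CentC.normalizer_c_le)
        rw [← centralizer_zpowers]
        exact Subgroup.centralizer_le_normalizer _
      have h4 : 2 ^ i ∣ 2 ^ 4 * (3 * 5 * 11 ^ 3) := by
        rw [← hi, ← mul_assoc, ← mul_assoc]
        exact h1.trans h3
      have h5 : 2 ^ i ∣ 2 ^ 4 := Nat.Coprime.dvd_of_dvd_mul_right (Nat.Coprime.pow_left i (by norm_num)) h4
      exact (Nat.pow_dvd_pow_iff_le_right (by norm_num)).1 h5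
  rw [hi]
  exact Nat.pow_le_pow_right (by norm_num) h2

variable {G : Type u} [Group G] [Finite G]

theorem two_le (e : Cfsg.Spor.J4 ≃* G) {w : G} (hw : orderOf w = 11) {D : Subgroup G} (hD : IsPGroup 2 D)
    (hc : D ≤ centralizer ({w} : Set G)) : Nat.card D ≤ 16 := by
  rw [← Cfsg.Agent.H859.Transfer.card_map e.symm D]
  refine two_le_J (w := e.symm w) (by rw [MulEquiv.orderOf_eq, hw]) (hD.map _) ?_
  rintro _ ⟨d, hd, rfl⟩
  rw [mem_centralizer_singleton_iff]
  have h1 := mem_centralizer_singleton_iff.1 (hc hd)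
  show e.symm d * e.symm w = e.symm w * e.symm d
  rw [← map_mul, h1, map_mul]

/-! ### The order of a subgroup on which `P` acts fixed-point-freely -/

theorem factorization_mod {p : ℕ} [Fact p.Prime] {U K : Subgroup G} (hU : IsPGroup p U)
    (hn : U ≤ normalizer (K : Set G)) (hpK : ¬ p ∣ Nat.card K) (hc : K ⊓ centralizer (U : Set G) = ⊥) {q : ℕ}
    (hq : q.Prime) : q ^ (Nat.card K).factorization q % p = 1 := by
  have : Fact q.Prime := ⟨hq⟩
  obtain ⟨Q, hQ⟩ := Lib.CoprimeHyperplane.exists_invariant_sylow hU hn hpK q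
  have h1 : Nat.card ((Q : Subgroup K).map K.subtype : Subgroup G) = q ^ (Nat.card K).factorization q := by
    rw [Subgroup.card_map_of_injective K.subtype_injective, Q.card_eq_multiplicity]
  rw [← h1]
  refine card_mod_one hU hQ ?_
  rw [eq_bot_iff, ← hc]
  exact inf_le_inf_right _ (Subgroup.map_subtype_le _)

theorem okC_31 : okC 31 = true := by decide +kernel

/-- a subgroup on which a subgroup of order 31 acts fixed-point-freely is a 2-group -/
theorem card_two (F : Base G) {P C : Subgroup G} (hP : Nat.card P = 31) (hn : P ≤ normalizer (C : Set G))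
    (hc : C ⊓ centralizer (P : Set G) = ⊥) : ∃ k, Nat.card C = 2 ^ k ∧ 2 ^ k % 31 = 1 := by
  have hp : Nat.Prime 31 := by norm_num
  have : Fact (Nat.Prime 31) := ⟨hp⟩
  have hPg : IsPGroup 31 P := IsPGroup.of_card (n := 1) (by rw [hP, pow_one])
  have h0 := card_mod_one hPg hn hc
  have h31 : ¬ 31 ∣ Nat.card C := by
    intro h
    rw [Nat.mod_eq_zero_of_dvd h] at h0
    exact absurd h0 (by norm_num)
  have key : ∀ q, q.Prime → q ≠ 2 → (Nat.card C).factorization q = 0 := by
    intro q hq hq2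
    by_contra h1
    have h2 : q ^ (Nat.card C).factorization q ∣ nJ := (Nat.ordProj_dvd _ _).trans (F.dvd C)
    obtain ⟨k, hk, hjk⟩ := exists_pair valid_lJ hq (Nat.pos_of_ne_zero h1) h2
    refine okC_spec okC_31 hk (Nat.pos_of_ne_zero h1) hjk hq2 ?_ (factorization_mod hPg hn h31 hc hq)
    rintro rfl
    exact h1 (Nat.factorization_eq_zero_of_not_dvd h31)
  refine ⟨(Nat.card C).factorization 2, ?_, factorization_mod hPg hn h31 hc Nat.prime_two⟩
  have h3 : (Nat.card C).factorization = Finsupp.single 2 ((Nat.card C).factorization 2) := by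
    ext q
    by_cases hq : q.Prime
    · by_cases hq2 : q = 2
      · rw [hq2, Finsupp.single_eq_same]
      · rw [key q hq hq2, Finsupp.single_eq_of_ne hq2]
    · have hq2 : q ≠ 2 := fun h => hq (h ▸ Nat.prime_two)
      rw [Nat.factorization_eq_zero_of_not_prime _ hq, Finsupp.single_eq_of_ne hq2]
  exact Nat.eq_pow_of_factorization_eq_single Nat.card_pos.ne' h3

theorem five_dvd {k : ℕ} (hk : 2 ^ k % 31 = 1) (h : k ≤ 21) : k = 0 ∨ k = 5 ∨ k = 10 ∨ k = 15 ∨ k = 20 := by
  have : ∀ k < 22, 2 ^ k % 31 = 1 → k = 0 ∨ k = 5 ∨ k = 10 ∨ k = 15 ∨ k = 20 := by decide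
  exact this k (by omega) hk

theorem ten_of {i j : ℕ} (h : 2 ^ j % 11 = 10) (h2 : 2 ^ i % 11 = 2 ^ j % 11) : 5 ≤ i := by
  by_contra h0
  rw [h] at h2
  have : ∀ i < 5, 2 ^ i % 11 ≠ 10 := by decide
  exact this i (by omega) h2

theorem card_cent_ten [IsSimpleGroup G] (hG : ¬ IsMulCommutative G) (hJ : Cfsg.IsOfJankoFourType G) {A : Subgroup G}
    (hA : IsElementaryAbelian 2 A) (hc : Nat.card A = 2 ^ 10) (hs : centralizer (A : Set G) = A) :
    Nat.card (normalizer (A : Set G)) = 9999360 * 2 ^ 10 := by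
  obtain ⟨⟨K, hK1, hK2, hK3, ⟨f⟩⟩, -⟩ := (Cfsg.Agent.S5570.result hG hJ).2.2 A hA hc hs
  have h1 := Cfsg.Agent.StdL2.G23Coset.card_sup_mul_card_inf hK1
  rw [hK3, hK2, Subgroup.card_bot, mul_one, hc, Nat.card_congr f.toEquiv, Cfsg.Agent.H821.SLTwo.card_five] at h1
  exact h1

theorem isPGroup_of_ea {R : Subgroup G} (h : IsElementaryAbelian 2 R) : IsPGroup 2 R :=
  fun x => ⟨1, by rw [pow_one]; exact Subtype.ext (h.2 x x.2)⟩

theorem le_cent_of_ea {R : Subgroup G} (h : IsElementaryAbelian 2 R) : R ≤ centralizer (R : Set G) := by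
  intro x hx
  rw [mem_centralizer_iff]
  intro y hy
  exact congrArg Subtype.val (h.1.is_comm.comm ⟨y, hy⟩ ⟨x, hx⟩)

theorem normalizer_le_normalizer_cent {R : Subgroup G} :
    normalizer (R : Set G) ≤ normalizer ((centralizer (R : Set G) : Subgroup G) : Set G) := by
  have key : ∀ x ∈ normalizer (R : Set G), ∀ y ∈ centralizer (R : Set G), x * y * x⁻¹ ∈ centralizer (R : Set G) := by
    intro x hx y hy
    rw [mem_centralizer_iff] at hy ⊢
    intro r hr
    have h1 : x⁻¹ * r * x ∈ R := by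
      have := (mem_normalizer_iff.1 ((normalizer (R : Set G)).inv_mem hx) r).1 hr
      rwa [inv_inv] at this
    have h2 := hy _ h1
    calc r * (x * y * x⁻¹) = x * (x⁻¹ * r * x * y) * x⁻¹ := by group
      _ = x * (y * (x⁻¹ * r * x)) * x⁻¹ := by rw [h2]
      _ = x * y * x⁻¹ * r := by group
  intro x hx
  rw [mem_normalizer_iff]
  intro y
  refine ⟨key x hx y, fun h => ?_⟩
  have h1 := key x⁻¹ ((normalizer (R : Set G)).inv_mem hx) _ h
  have h2 : x⁻¹ * (x * y * x⁻¹) * x⁻¹⁻¹ = y := by group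
  rwa [h2] at h1

/-- **no 2-local subgroup of `J4` contains elements of order 31 and 11** -/
theorem not_two_local [IsSimpleGroup G] (hG : ¬ IsMulCommutative G) (hJ : Cfsg.IsOfJankoFourType G) (F : Base G)
    (e : Cfsg.Spor.J4 ≃* G) {P : Subgroup G} (hP : Nat.card P = 31) (hC : centralizer (P : Set G) ≤ P) {u : G}
    (hu : orderOf u = 11) {R : Subgroup G} (hR : IsElementaryAbelian 2 R) (hPR : P ≤ normalizer (R : Set G))
    (huR : u ∈ normalizer (R : Set G)) (hRP : R ⊓ centralizer (P : Set G) = ⊥) {j : ℕ} (hj1 : 1 ≤ j) (hj2 : j ≤ 11)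
    (hj : Nat.card R = 2 ^ j) : False := by
  have hp : Nat.Prime 31 := by norm_num
  have f31 : Fact (Nat.Prime 31) := ⟨hp⟩
  have f11 : Fact (Nat.Prime 11) := ⟨by norm_num⟩
  have f2 : Fact (Nat.Prime 2) := ⟨Nat.prime_two⟩
  have hPg : IsPGroup 31 P := IsPGroup.of_card (n := 1) (by rw [hP, pow_one])
  set C := centralizer (R : Set G) with hCdef
  have hNC : normalizer (R : Set G) ≤ normalizer (C : Set G) := normalizer_le_normalizer_cent
  have hRC : R ≤ C := le_cent_of_ea hR
  -- `C ∩ P = 1`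
  have hR1 : R ≠ ⊥ := by
    rintro rfl
    rw [Subgroup.card_bot] at hj
    have := Nat.one_lt_two_pow (n := j) (by omega)
    omega
  have hPC : P ⊓ C = ⊥ := by
    have h1 := Subgroup.card_dvd_of_le (inf_le_left : P ⊓ C ≤ P)
    rw [hP] at h1
    rcases (Nat.dvd_prime hp).1 h1 with h2 | h2
    · exact Subgroup.card_eq_one.1 h2
    · exfalso
      have h3 : P ≤ C := inf_eq_left.1 (Subgroup.eq_of_le_of_card_ge inf_le_left (by rw [hP, h2]))
      apply hR1
      rw [eq_bot_iff, ← hRP]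
      refine le_inf le_rfl ?_
      rw [Subgroup.le_centralizer_iff]
      exact h3
  have hCP : C ⊓ centralizer (P : Set G) = ⊥ := by
    rw [eq_bot_iff, ← hPC, inf_comm P C]
    exact inf_le_inf_left _ hC
  obtain ⟨k, hk, hk31⟩ := card_two F hP (hPR.trans hNC) hCP
  have hk21 : k ≤ 21 := by
    have h1 : 2 ^ k ∣ 2 ^ 21 * (3 ^ 3 * 5 * 7 * 11 ^ 3 * 23 * 29 * 31 * 37 * 43) := by
      have := hk ▸ F.dvd C
      rw [nJ_eq] at this
      simpa only [mul_assoc] using this
    have h2 : 2 ^ k ∣ 2 ^ 21 := Nat.Coprime.dvd_of_dvd_mul_right (Nat.Coprime.pow_left k (by norm_num)) h1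
    exact (Nat.pow_dvd_pow_iff_le_right (by norm_num)).1 h2
  have hCg : IsPGroup 2 C := IsPGroup.of_card hk
  have huC : u ∉ C := by
    intro h
    obtain ⟨m, hm⟩ := hCg ⟨u, h⟩
    have h1 : u ^ 2 ^ m = 1 := congrArg Subtype.val hm
    have h2 := orderOf_dvd_of_pow_eq_one h1
    rw [hu] at h2
    have h3 := (Nat.Prime.dvd_of_dvd_pow (by norm_num) h2 : 11 ∣ 2)
    norm_num at h3
  -- the action of `u`
  have hUg : IsPGroup 11 (zpowers u) := IsPGroup.of_card (n := 1) (by rw [Nat.card_zpowers, hu, pow_one])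
  have hu16 : ∀ D : Subgroup G, IsPGroup 2 D → zpowers u ≤ normalizer (D : Set G) → ∀ i : ℕ, Nat.card D = 2 ^ i →
      2 ^ i % 11 ≠ 10 := by
    intro D hD hn i hi h10
    have h1 := card_mod hUg hn
    have h2 : IsPGroup 2 (D ⊓ centralizer ((zpowers u : Subgroup G) : Set G) : Subgroup G) :=
      hD.to_le inf_le_left
    obtain ⟨l, hl⟩ := IsPGroup.iff_card.1 h2
    rw [hi, hl] at h1
    have h3 := ten_of h10 (h1.symm : 2 ^ l % 11 = 2 ^ i % 11)
    have h4 := two_le e hu h2 (by rw [centralizer_zpowers]; exact inf_le_right)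
    rw [hl] at h4
    have h5 : 2 ^ 5 ≤ 2 ^ l := Nat.pow_le_pow_right (by norm_num) h3
    omega
  have hun : zpowers u ≤ normalizer (R : Set G) := by rw [zpowers_le]; exact huR
  have hjk : j ≤ k := by
    have h1 := Subgroup.card_le_of_le hRC
    rw [hj, hk] at h1
    exact (Nat.pow_le_pow_iff_right (by norm_num)).1 h1
  have hj31 : 2 ^ j % 31 = 1 := by
    rw [← hj]
    exact card_mod_one hPg hPR hRP
  have hj5 : j = 5 ∨ j = 10 := by
    have h1 := five_dvd hj31 (by omega)
    omega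
  rcases hj5 with rfl | rfl
  · exact hu16 R (isPGroup_of_ea hR) hun 5 hj (by norm_num)
  have hk5 : k = 10 ∨ k = 15 ∨ k = 20 := by
    have h1 := five_dvd hk31 (by omega)
    omega
  rcases hk5 with rfl | rfl | rfl
  · -- self-centralizing
    have h1 : C = R := (Subgroup.eq_of_le_of_card_ge hRC (by rw [hk, hj])).symm
    have h2 := card_cent_ten hG hJ hR hj h1
    have h3 : 11 ∣ Nat.card (normalizer (R : Set G)) := by
      rw [← hu, ← Nat.card_zpowers]
      exact Subgroup.card_dvd_of_le hun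
    rw [h2] at h3
    norm_num at h3
  · exact hu16 C hCg (hun.trans hNC) 15 hk (by norm_num)
  · -- `|C| = 2 ^ 20`
    obtain ⟨T, hT⟩ := hCg.exists_le_sylow
    obtain ⟨V, ⟨hVT, hV, hVc⟩, hVu⟩ := Cfsg.Agent.S5566.result hG hJ T
    have hVC : ¬ V ≤ C := by
      intro h0
      have h1 : P ≤ normalizer (V : Set G) := by
        have h2 : ∀ x ∈ P, V.map (MulAut.conj x).toMonoidHom = V := by
          intro x hx
          have hle : V.map (MulAut.conj x).toMonoidHom ≤ C := by
            rintro _ ⟨v, hv, rfl⟩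
            exact (mem_normalizer_iff.1 (hNC (hPR hx)) v).1 (h0 hv)
          refine hVu _ ⟨hle.trans hT, ⟨⟨⟨?_⟩⟩, ?_⟩, ?_⟩
          · rintro ⟨_, a, ha, rfl⟩ ⟨_, b, hb, rfl⟩
            apply Subtype.ext
            have h3 : a * b = b * a := congrArg Subtype.val (hV.1.is_comm.comm ⟨a, ha⟩ ⟨b, hb⟩)
            show (MulAut.conj x) a * (MulAut.conj x) b = (MulAut.conj x) b * (MulAut.conj x) a
            rw [← map_mul, h3, map_mul]
          · rintro _ ⟨a, ha, rfl⟩
            show ((MulAut.conj x) a) ^ 2 = 1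
            rw [← map_pow, hV.2 a ha, map_one]
          · rw [Subgroup.card_map_of_injective (MulAut.conj x).injective, hVc]
        intro x hx
        rw [Subgroup.mem_normalizer_iff_map_conj_eq]
        exact h2 x hx
      have h2 : V ⊓ centralizer (P : Set G) = ⊥ := by
        rw [eq_bot_iff, ← hCP]
        exact inf_le_inf_right _ h0
      have h3 := card_mod_one hPg h1 h2
      rw [hVc] at h3
      norm_num at h3
    have hRV : ¬ R ≤ V := fun h0 => hVC ((le_cent_of_ea hV).trans (Subgroup.centralizer_le h0))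
    -- `V ∩ C` has index at most two in `V`
    set V0 := V ⊓ C with hV0
    have hTc : Nat.card (T : Subgroup G) ≤ 2 ^ 21 := by
      obtain ⟨t, ht⟩ := IsPGroup.iff_card.1 T.2
      have h1 : 2 ^ t ∣ 2 ^ 21 * (3 ^ 3 * 5 * 7 * 11 ^ 3 * 23 * 29 * 31 * 37 * 43) := by
        have := ht ▸ F.dvd (T : Subgroup G)
        rw [nJ_eq] at this
        simpa only [mul_assoc] using this
      have h2 : 2 ^ t ∣ 2 ^ 21 := Nat.Coprime.dvd_of_dvd_mul_right (Nat.Coprime.pow_left t (by norm_num)) h1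
      rw [ht]
      exact Nat.le_of_dvd (by norm_num) h2
    have h1 : Nat.card V * Nat.card C ≤ Nat.card V0 * 2 ^ 21 := by
      have h2 := Cfsg.Agent.Lib.ProductSet.card_mul_card_inf V C
      have h3 : Nat.card ((V : Set G) * (C : Set G) : Set G) ≤ Nat.card (T : Subgroup G) := by
        refine Nat.card_mono (Set.toFinite _) ?_
        rintro _ ⟨a, ha, b, hb, rfl⟩
        exact (T : Subgroup G).mul_mem (hVT ha) (hT hb)
      rw [← h2, mul_comm (Nat.card V0)]
      exact Nat.mul_le_mul_right _ (h3.trans hTc)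
    rw [hVc, hk] at h1
    have hV0c : 2 ^ 10 ≤ Nat.card V0 := by
      by_contra h2
      push Not at h2
      have h3 : Nat.card V0 * 2 ^ 21 < 2 ^ 10 * 2 ^ 21 := Nat.mul_lt_mul_of_pos_right h2 (by norm_num)
      have h4 : 2 ^ 11 * 2 ^ 20 = 2 ^ 10 * 2 ^ 21 := by norm_num
      omega
    -- `R V0` is elementary abelian
    have hcomm : ∀ a ∈ R, ∀ b ∈ V0, a * b = b * a := fun a ha b hb => mem_centralizer_iff.1 hb.2 a ha
    have hRn : R ≤ normalizer (V0 : Set G) := by
      refine le_trans ?_ (Subgroup.centralizer_le_normalizer _)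
      intro a ha
      rw [mem_centralizer_iff]
      exact fun b hb => (hcomm a ha b hb).symm
    have hsup := Subgroup.coe_mul_of_left_le_normalizer_right R V0 hRn
    have hWea : IsElementaryAbelian 2 (R ⊔ V0 : Subgroup G) := by
      have hmem : ∀ x ∈ R ⊔ V0, ∃ a ∈ R, ∃ b ∈ V0, x = a * b := by
        intro x hx
        have h2 : x ∈ ((R ⊔ V0 : Subgroup G) : Set G) := hx
        rw [hsup] at h2
        obtain ⟨a, ha, b, hb, h⟩ := h2
        exact ⟨a, ha, b, hb, h.symm⟩
      have hRR : ∀ a ∈ R, ∀ b ∈ R, a * b = b * a := fun a ha b hb =>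
        congrArg Subtype.val (hR.1.is_comm.comm ⟨a, ha⟩ ⟨b, hb⟩)
      have hVV : ∀ a ∈ V, ∀ b ∈ V, a * b = b * a := fun a ha b hb =>
        congrArg Subtype.val (hV.1.is_comm.comm ⟨a, ha⟩ ⟨b, hb⟩)
      refine ⟨⟨⟨?_⟩⟩, ?_⟩
      · rintro ⟨x, hx⟩ ⟨y, hy⟩
        obtain ⟨a, ha, b, hb, rfl⟩ := hmem x hx
        obtain ⟨c, hc, d, hd, rfl⟩ := hmem y hy
        apply Subtype.ext
        show a * b * (c * d) = c * d * (a * b)
        have e1 : Commute (a * b) (c * d) :=
          ((show Commute a c from hRR a ha c hc).mul_right (show Commute a d from hcomm a ha d hd)).mul_left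
            ((show Commute b c from (hcomm c hc b hb).symm).mul_right
              (show Commute b d from hVV b hb.1 d hd.1))
        exact e1.eq
      · intro x hx
        obtain ⟨a, ha, b, hb, rfl⟩ := hmem x hx
        rw [(show Commute a b from hcomm a ha b hb).mul_pow, hR.2 a ha, hV.2 b hb.1, one_mul]
    have hWT : R ⊔ V0 ≤ (T : Subgroup G) := sup_le (hRC.trans hT) (inf_le_left.trans hVT)
    have hWc := F.ea _ hWea
    have hW2 : Nat.card (R ⊔ V0 : Subgroup G) = 2 ^ 11 := by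
      obtain ⟨m, hm⟩ := IsPGroup.iff_card.1 (isPGroup_of_ea hWea)
      rw [hm] at hWc ⊢
      have h2 : m ≤ 11 := (Nat.pow_le_pow_iff_right (by norm_num)).1 hWc
      have h3 : ¬ m ≤ 10 := by
        intro h4
        have h5 : Nat.card (R ⊔ V0 : Subgroup G) ≤ 2 ^ 10 := hm ▸ Nat.pow_le_pow_right (by norm_num) h4
        have h6 : V0 = R ⊔ V0 := Subgroup.eq_of_le_of_card_ge le_sup_right (h5.trans hV0c)
        exact hRV ((le_sup_left.trans h6.ge).trans inf_le_left)
      have h4 : m = 11 := by omega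
      rw [h4]
    have h2 := hVu (R ⊔ V0) ⟨hWT, hWea, hW2⟩
    exact hRV (le_sup_left.trans h2.le)

theorem ords_31 : ∀ n ∈ ords, 31 ∣ n → n = 32736 ∨ n = 14880 ∨ n = 9999360 ∨ n = nJ := by decide +kernel

theorem names_l32 : ∀ x ∈ names, x.2 = 32736 → x.1 = Grp.psl 2 32 := by decide +kernel

/-- **`L₂(32) : 5` is a maximal subgroup** -/
theorem part_c [IsSimpleGroup G] (hG : ¬ IsMulCommutative G) (hJ : Cfsg.IsOfJankoFourType G) (F : Facts G)
    (e : Cfsg.Spor.J4 ≃* G) :
    ∃ M : Subgroup G, IsCoatom M ∧ ∃ (K : Subgroup ↥M) (F : Type) (_ : Field F) (_ : Fintype F),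
        Fintype.card F = 32 ∧ K.Normal ∧ K.index = 5 ∧
          Nonempty (↥K ≃* Matrix.ProjectiveSpecialLinearGroup (Fin 2) F) := by
  have hp : Nat.Prime 31 := by norm_num
  have f31 : Fact (Nat.Prime 31) := ⟨hp⟩
  set S := L32Data.S.map e.toMonoidHom with hSdef
  have hSt : S ≠ ⊤ := by
    intro h0
    apply L32Data.S_ne
    rw [eq_top_iff]
    intro x _
    have h1 : e x ∈ S := h0 ▸ mem_top _
    obtain ⟨y, hy, h2⟩ := h1
    rw [← e.injective h2]
    exact hy
  obtain ⟨M, hM, hSM⟩ := (eq_top_or_exists_le_coatom S).resolve_left hSt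
  set P := zpowers (e L32Data.w31) with hPdef
  set u := e L32Data.w11 with hudef
  have hu : orderOf u = 11 := by rw [hudef, MulEquiv.orderOf_eq, L32Data.order_w11]
  have huM : u ∈ M := hSM ⟨_, L32Data.w11_mem, rfl⟩
  have hP : Nat.card P = 31 := by rw [hPdef, Nat.card_zpowers, MulEquiv.orderOf_eq, L32Data.order_w31]
  have hPM : P ≤ M := by
    rw [hPdef, zpowers_le]
    exact hSM ⟨_, L32Data.w31_mem, rfl⟩
  have h11 : 11 ∣ Nat.card M := by
    rw [← hu, ← Nat.card_zpowers]
    exact Subgroup.card_dvd_of_le (by rw [zpowers_le]; exact huM)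
  have h5 : 5 ∣ Nat.card M := by
    have h1 : orderOf (e L32Data.e) = 5 := by rw [MulEquiv.orderOf_eq, L32Data.order_e]
    rw [← h1, ← Nat.card_zpowers]
    exact Subgroup.card_dvd_of_le (by rw [zpowers_le]; exact hSM ⟨_, L32Data.e_mem, rfl⟩)
  obtain ⟨hC0, hN⟩ := transfer e (fun P hP => Cfsg.Agent.H859.BigNum.data31 hP) hP
  have hC := cent_le hp hP hC0
  have hMN : ¬ M ≤ normalizer (P : Set G) := by
    intro h0
    have h1 := h11.trans (Subgroup.card_dvd_of_le h0)
    rw [hN] at h1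
    norm_num at h1
  rcases F.base.over hp goodC_31 hP hC hPM hMN with
    ⟨R, hRM, hRn, hR, hRP, j, hj1, hj2, hj3, hj4⟩ | ⟨K, hK, hKn, h1, h2, h3, h4, h5', h6⟩
  · exact (not_two_local hG hJ F.base e hP hC hu hR (hPM.trans hRn) (hRn huM) hRP hj1 hj2 hj4).elim
  · have h7 : Nat.card K ≠ nJ := fun h0 => hM.1 (top_le_iff.1 (F.eq_top h0 ▸ hK))
    have h8 : 31 ∣ Nat.card K := hP ▸ Subgroup.card_dvd_of_le h4
    have hfr := frattini_card hK hKn h5'
    obtain ⟨m, hm, he⟩ := sylow_mod h5'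
    have h9 : Nat.card (normalizer (P : Set G) ⊓ K : Subgroup G) ∣ 310 := by
      have := Subgroup.card_dvd_of_le (inf_le_left : normalizer (P : Set G) ⊓ K ≤ normalizer (P : Set G))
      rwa [hN] at this
    have h10 : Nat.card (normalizer (P : Set G) ⊓ M : Subgroup G) ∣ 310 := by
      have := Subgroup.card_dvd_of_le (inf_le_left : normalizer (P : Set G) ⊓ M ≤ normalizer (P : Set G))
      rwa [hN] at this
    have h10' : Nat.card (normalizer (P : Set G) ⊓ K : Subgroup G) ∣
        Nat.card (normalizer (P : Set G) ⊓ M : Subgroup G) :=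
      Subgroup.card_dvd_of_le (inf_le_inf_left _ hK)
    rcases ords_31 _ h3 h8 with hc | hc | hc | hc
    · -- `L₂(32)`
      have ha : Nat.card (normalizer (P : Set G) ⊓ K : Subgroup G) = 62 := by
        rw [hc] at he
        exact solve_mod (n := 310) (p := 31) (a := 62) (by decide +kernel) (by norm_num) h9 hm he
      rw [ha] at hfr h10'
      have hb : Nat.card (normalizer (P : Set G) ⊓ M : Subgroup G) = 310 := by
        have hb5 : 5 ∣ Nat.card (normalizer (P : Set G) ⊓ M : Subgroup G) := by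
          have hd : 5 ∣ Nat.card K * Nat.card (normalizer (P : Set G) ⊓ M : Subgroup G) :=
            hfr ▸ h5.mul_right 62
          rw [hc] at hd
          exact Nat.Coprime.dvd_of_dvd_mul_left (by norm_num) hd
        have h310 : 310 ∣ Nat.card (normalizer (P : Set G) ⊓ M : Subgroup G) := by
          have := Nat.Coprime.mul_dvd_of_dvd_of_dvd (by norm_num : Nat.Coprime 62 5) h10' hb5
          exact this
        exact Nat.dvd_antisymm h10 h310
      rw [hb, hc] at hfr
      have hMc : Nat.card M = 5 * 32736 := by omega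
      obtain ⟨x, hx, hr, hcx⟩ := exists_name F.tab (F.known K) h2 (F.dvd K)
      have h12 := names_l32 x hx (hcx ▸ hc)
      rw [h12] at hr
      obtain ⟨Fd, i1, i2, hF, ⟨g⟩⟩ := hr
      refine ⟨M, hM, K.subgroupOf M, Fd, i1, i2, hF, ?_, ?_, ⟨(Subgroup.subgroupOfEquivOfLe hK).trans g⟩⟩
      · exact (Subgroup.normal_subgroupOf_iff_le_normalizer hK).2 hKn
      · have h13 := (K.subgroupOf M).card_mul_index
        rw [Nat.card_congr (Subgroup.subgroupOfEquivOfLe hK).toEquiv, hc, hMc] at h13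
        omega
    · exfalso
      rw [hc] at he
      have ha : Nat.card (normalizer (P : Set G) ⊓ K : Subgroup G) = 0 :=
        solve_mod (n := 310) (p := 31) (a := 0) (by decide +kernel) (by norm_num) h9 hm he
      exact absurd ha Nat.card_pos.ne'
    · exfalso
      have hd : 11 ∣ Nat.card K * Nat.card (normalizer (P : Set G) ⊓ M : Subgroup G) :=
        hfr ▸ h11.mul_right _
      rw [hc] at hd
      have hd2 : 11 ∣ Nat.card (normalizer (P : Set G) ⊓ M : Subgroup G) :=
        Nat.Coprime.dvd_of_dvd_mul_left (by norm_num) hd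
      have hd3 := hd2.trans h10
      norm_num at hd3
    · exact absurd hc h7

end Cfsg.Agent.H860.MaxL32
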