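import Cfsg.Agent.H860.MaxBase
import Cfsg.Agent.H866.J4Facts
import Cfsg.Agent.H859.PGLWords
import Cfsg.Agent.H859.Transfer
import Cfsg.Agent.H397.ZAut
import Cfsg.Agent.KFacts.M24Two.Out
import Cfsg.Agent.KFacts.M23.OutOne
import Cfsg.Agent.S5567

/-!
# The maximal subgroup `PGL₂(23)` of `J4` (helper860)
-/

set_option autoImplicit false

namespace Cfsg.Agent.H860.MaxPGL

open Cfsg Subgroup
open Cfsg.Agent.OrdDiv
open Cfsg.Agent.H866.J4Ord Cfsg.Agent.H866.J4Min Cfsg.Agent.H866.OddTools Cfsg.Agent.H866.J4Odd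
open Cfsg.Agent.OddOrderLocal.SylIn Cfsg.Agent.OddOrderLocal
open Cfsg.Agent.H860.MaxBase

universe u

variable {G : Type u} [Group G] [Finite G]

theorem _root_.Cfsg.Agent.H866.J4Odd.Facts.base (F : Facts G) : Base G where
  tab := F.tab
  known := F.known
  card := F.card
  ea := F.ea

/-- data on subgroups of prime order, transported from `J4` -/
theorem transfer (e : Cfsg.Spor.J4 ≃* G) {p c n : ℕ}
    (h : ∀ P : Subgroup Cfsg.Spor.J4, Nat.card P = p → Nat.card (centralizer (P : Set Cfsg.Spor.J4)) = c ∧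
      Nat.card (normalizer (P : Set Cfsg.Spor.J4)) = n) {P : Subgroup G} (hP : Nat.card P = p) :
    Nat.card (centralizer (P : Set G)) = c ∧ Nat.card (normalizer (P : Set G)) = n := by
  have h1 : (P.map e.symm.toMonoidHom).map e.toMonoidHom = P := by
    rw [Subgroup.map_map]
    convert Subgroup.map_id P
    ext x
    simp
  have h2 := h (P.map e.symm.toMonoidHom) (by rw [Cfsg.Agent.H859.Transfer.card_map, hP])
  rw [← h1, Cfsg.Agent.H859.Transfer.map_normalizer, Cfsg.Agent.H859.Transfer.map_centralizer,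
    Cfsg.Agent.H859.Transfer.card_map, Cfsg.Agent.H859.Transfer.card_map]
  exact h2

/-- self-centralizing subgroups of prime order -/
theorem cent_le {p : ℕ} (hp : p.Prime) {P : Subgroup G} (hP : Nat.card P = p)
    (h : Nat.card (centralizer (P : Set G)) = p) : centralizer (P : Set G) ≤ P :=
  (Cfsg.Agent.H859.PrimeSub.centralizer_eq hp hP h).le

/-- the order of the normalizer of an elementary abelian subgroup of order `2 ^ 11` -/
theorem card_NV [IsSimpleGroup G] (hG : ¬ IsMulCommutative G) (hJ : Cfsg.IsOfJankoFourType G) {V : Subgroup G}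
    (hV : IsElementaryAbelian 2 V) (hc : Nat.card V = 2 ^ 11) :
    Nat.card (normalizer (V : Set G)) = 244823040 * 2 ^ 11 := by
  obtain ⟨-, K, hK1, hK2, hK3, ⟨f⟩⟩ := Cfsg.Agent.S5567.result hG hJ V hV hc
  have h1 := Cfsg.Agent.StdL2.G23Coset.card_sup_mul_card_inf hK1
  rw [hK3, hK2, Subgroup.card_bot, mul_one, hc, Nat.card_congr f.toEquiv] at h1
  rw [h1]
  congr 1
  exact Cfsg.Agent.SporadicA.M24Trans.card_M24

/-- an extension of degree two of a group without outer automorphisms contains an element centralizing it -/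
theorem exists_cent_two {K M : Subgroup G} [IsSimpleGroup K] (hKM : K ≤ M)
    (hn : M ≤ normalizer (K : Set G)) (hc : Nat.card M = 2 * Nat.card K)
    (hin : ∀ α : MulAut K, ∃ k : K, ∀ x, α x = k * x * k⁻¹) : ∃ c ∈ centralizer (K : Set G), c ≠ 1 := by
  obtain ⟨m, hm, hmK⟩ : ∃ m ∈ M, m ∉ K := by
    by_contra h0
    push Not at h0
    have h1 := Subgroup.card_le_of_le (fun x hx => h0 x hx : M ≤ K)
    have h2 : 0 < Nat.card K := Nat.card_pos
    omega
  obtain ⟨k, hk⟩ := hin (K.normalizerMonoidHom ⟨m, hn hm⟩)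
  refine ⟨(k : G)⁻¹ * m, ?_, fun h1 => hmK ?_⟩
  · rw [mem_centralizer_iff]
    intro y hy
    have h1 : m * y * m⁻¹ = (k : G) * y * (k : G)⁻¹ := congrArg Subtype.val (hk ⟨y, hy⟩)
    have h2 : (k : G)⁻¹ * m * y = (k : G)⁻¹ * (m * y * m⁻¹) * m := by group
    rw [h2, h1]
    group
  · have h2 : m = (k : G) := by
      rw [← mul_left_cancel_iff (a := (k : G)⁻¹), h1, inv_mul_cancel]
    rw [h2]
    exact k.2

theorem ords_23 : ∀ n ∈ ords, 23 ∣ n → n = 6072 ∨ n = 10200960 ∨ n = 244823040 ∨ n = nJ := by decide +kernel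

theorem names_m23 : ∀ x ∈ names, x.2 = 10200960 → x.1 = Grp.m23 := by decide +kernel
theorem names_m24 : ∀ x ∈ names, x.2 = 244823040 → x.1 = Grp.m24 := by decide +kernel

/-- **`PGL₂(23)` is a maximal subgroup** -/
theorem part_d [IsSimpleGroup G] (hG : ¬ IsMulCommutative G) (hJ : Cfsg.IsOfJankoFourType G) (F : Facts G)
    (e : Cfsg.Spor.J4 ≃* G) :
    ∃ M : Subgroup G, IsCoatom M ∧ Nonempty (↥M ≃* GL (Fin 2) (ZMod 23) ⧸ Subgroup.center (GL (Fin 2) (ZMod 23))) := by
  have hp : Nat.Prime 23 := by norm_num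
  have f23 : Fact (Nat.Prime 23) := ⟨hp⟩
  obtain ⟨L, -, -, -, ⟨f⟩⟩ := Cfsg.Agent.H859.PGLWords.exists_pgl
  set X := L.map e.toMonoidHom with hX
  have fX : X ≃* GL (Fin 2) (ZMod 23) ⧸ Subgroup.center (GL (Fin 2) (ZMod 23)) :=
    (L.equivMapOfInjective e.toMonoidHom e.injective).symm.trans f
  have hXc : Nat.card X = 12144 := by
    rw [Nat.card_congr fX.toEquiv, Cfsg.Agent.H397.ZAut.card_pgl, ZMod.card]
    norm_num
  have hXt : X ≠ ⊤ := by
    intro h0
    rw [h0, Subgroup.card_top, F.card] at hXc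
    norm_num [nJ] at hXc
  obtain ⟨M, hM, hXM⟩ := (eq_top_or_exists_le_coatom X).resolve_left hXt
  -- the subgroup of order 23
  obtain ⟨y, hy⟩ := exists_prime_orderOf_dvd_card' (G := X) 23 (by rw [hXc]; norm_num)
  set P := zpowers (y : G) with hPdef
  have hP : Nat.card P = 23 := by rw [hPdef, Nat.card_zpowers, Subgroup.orderOf_coe, hy]
  have hPX : P ≤ X := by rw [hPdef, zpowers_le]; exact y.2
  obtain ⟨hC0, hN⟩ := transfer e (fun P hP => Cfsg.Agent.H859.BigNum.data23 hP) hP
  have hC := cent_le hp hP hC0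
  have hPM : P ≤ M := hPX.trans hXM
  have hcardM : 12144 ≤ Nat.card M := hXc ▸ Subgroup.card_le_of_le hXM
  have hMN : ¬ M ≤ normalizer (P : Set G) := by
    intro h0
    have h1 := Subgroup.card_le_of_le h0
    rw [hN] at h1
    omega
  have hPg : IsPGroup 23 P := IsPGroup.of_card (n := 1) (by rw [hP, pow_one])
  have hsyl : ∀ Y : Subgroup G, P ≤ Y → IsSyl 23 P Y := fun Y hY => by
    refine ⟨hY, hPg, fun h => ?_⟩
    have h1 := card_mul_relIndex hY
    obtain ⟨c, hc⟩ := h
    have h2 : 23 ^ 2 ∣ Nat.card Y := ⟨c, by rw [← h1, hP, hc]; ring⟩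
    have h3 := h2.trans (F.dvd Y)
    norm_num [nJ] at h3
  -- the normalizer of `P` lies in `X`
  have hNX : normalizer (P : Set G) ≤ X := by
    obtain ⟨m, hm, he⟩ := sylow_mod (hsyl X hPX)
    rw [hXc] at he
    have h9 : Nat.card (normalizer (P : Set G) ⊓ X : Subgroup G) ∣ 506 := by
      have := Subgroup.card_dvd_of_le (inf_le_left : normalizer (P : Set G) ⊓ X ≤ normalizer (P : Set G))
      rwa [hN] at this
    have h10 : ∀ d ∈ Nat.divisors 506, d ∣ 12144 → (12144 / d) % 23 = 1 → d = 506 := by decide +kernel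
    have h11 := solve_mod h10 (by norm_num) h9 hm he
    have h12 : normalizer (P : Set G) ⊓ X = normalizer (P : Set G) :=
      Subgroup.eq_of_le_of_card_ge inf_le_left (by rw [h11, hN])
    exact inf_eq_left.1 h12
  have hNM : normalizer (P : Set G) ≤ M := hNX.trans hXM
  rcases F.base.over hp goodC_23 hP hC hPM hMN with
    ⟨R, hRM, hRn, hR, -, j, hj1, hj2, hj3, hj4⟩ | ⟨K, hK, hKn, h1, h2, h3, h4, h5, h6⟩
  · exfalso
    have hj : j = 11 := by
      have : ∀ j < 12, 1 ≤ j → 2 ^ j % 23 = 1 → j = 11 := by decide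
      exact this j (by omega) hj1 hj3
    rw [hj] at hj4
    have h7 := card_NV hG hJ hR hj4
    obtain ⟨m, hm, he⟩ := sylow_mod (hsyl (normalizer (R : Set G)) (hPM.trans hRn))
    rw [inf_eq_left.2 (hNM.trans hRn), hN, h7] at he
    omega
  · have h7 : Nat.card K ≠ nJ := fun h0 => hM.1 (top_le_iff.1 (F.eq_top h0 ▸ hK))
    have h8 : 23 ∣ Nat.card K := hP ▸ Subgroup.card_dvd_of_le h4
    have hfr := frattini_card hK hKn h5
    rw [inf_eq_left.2 hNM, hN] at hfr
    obtain ⟨m, hm, he⟩ := sylow_mod h5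
    have h9 : Nat.card (normalizer (P : Set G) ⊓ K : Subgroup G) ∣ 506 := by
      have := Subgroup.card_dvd_of_le (inf_le_left : normalizer (P : Set G) ⊓ K ≤ normalizer (P : Set G))
      rwa [hN] at this
    have key : Nat.card K = 10200960 ∨ Nat.card K = 244823040 →
        (∀ α : MulAut K, ∃ k : K, ∀ x, α x = k * x * k⁻¹) → False := by
      intro hc hin
      have h11 : Nat.card (normalizer (P : Set G) ⊓ K : Subgroup G) = 253 := by
        rcases hc with hc | hc
        · rw [hc] at he
          exact solve_mod (n := 506) (p := 23) (a := 253) (by decide +kernel) (by norm_num) h9 hm he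
        · rw [hc] at he
          exact solve_mod (n := 506) (p := 23) (a := 253) (by decide +kernel) (by norm_num) h9 hm he
      rw [h11] at hfr
      obtain ⟨c, hc1, hc2⟩ := exists_cent_two hK hKn (by omega) hin
      have h12 : c ∈ P := hC (Subgroup.centralizer_le h4 hc1)
      have h13 : c ∈ K := h4 h12
      -- the centre of `K` is trivial
      have h14 : (⟨c, h13⟩ : K) ∈ center K := by
        rw [mem_center_iff]
        intro g
        exact Subtype.ext (mem_centralizer_iff.1 hc1 g g.2)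
      have h15 : center K = ⊥ := by
        rcases (inferInstance : (center K).Normal).eq_bot_or_eq_top with h | h
        · exact h
        · exfalso
          apply h2
          intro a b
          exact ((mem_center_iff.1 (h ▸ mem_top a : a ∈ center K)) b).symm
      rw [h15, mem_bot] at h14
      exact hc2 (congrArg Subtype.val h14)
    rcases ords_23 _ h3 h8 with hc | hc | hc | hc
    · have h11 : Nat.card (normalizer (P : Set G) ⊓ K : Subgroup G) = 253 := by
        rw [hc] at he
        exact solve_mod (n := 506) (p := 23) (a := 253) (by decide +kernel) (by norm_num) h9 hm he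
      rw [h11, hc] at hfr
      have h12 : X = M := Subgroup.eq_of_le_of_card_ge hXM (by rw [hXc]; omega)
      exact ⟨M, hM, ⟨(MulEquiv.subgroupCongr h12).symm.trans fX⟩⟩
    · exfalso
      refine key (Or.inl hc) ?_
      obtain ⟨x, hx, hr, hcx⟩ := exists_name F.tab (F.known K) h2 (F.dvd K)
      have h12 := names_m23 x hx (hcx ▸ hc)
      rw [h12] at hr
      intro α
      exact Cfsg.Agent.KFacts.M23.OutOne.exists_conj' hr α
    · exfalso
      refine key (Or.inr hc) ?_
      obtain ⟨x, hx, hr, hcx⟩ := exists_name F.tab (F.known K) h2 (F.dvd K)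
      have h12 := names_m24 x hx (hcx ▸ hc)
      rw [h12] at hr
      obtain ⟨g⟩ := (hr : Spor.IsoM24 K)
      intro α
      obtain ⟨k, hk⟩ := Cfsg.Agent.KFacts.M24Two.Out.exists_conj ((MulAut.congr g) α)
      refine ⟨g.symm k, fun x => ?_⟩
      apply g.injective
      have h13 := congrArg (fun f : MulAut _ => f (g x)) hk
      simpa [MulAut.congr] using h13
    · exact absurd hc h7

end Cfsg.Agent.H860.MaxPGL
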